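import Cfsg.Prelude.Def_AlmostLie
import Cfsg.Agent.Eq.Def_EvenType
import Cfsg.Agent.Eq.Def_Local
import Cfsg.Agent.Eq.Def_Classification2
import Cfsg.Agent.Eq.Def_LieTypeChar
import Cfsg.Agent.Eq.Def_Transfer
import Cfsg.Agent.Eq.Def_LocalEven

/-! Pre-generates on-demand lemmas for the definitions, so that importers share one copy. -/

theorem CfsgLib.Eq.Def_AlmostLie.touch : True := by
  have := (fun _ => trivial : _ → True) @Cfsg.IsKpGroup.eq_1.{0}
  have := (fun _ => trivial : _ → True) @Cfsg.IsKpGroup.eq_def.{0}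
  have := (fun _ => trivial : _ → True) @Cfsg.IsKpGroup.congr_simp.{0}
  have := (fun _ => trivial : _ → True) @Cfsg.IsLieRankAtLeastThreeChar.eq_1.{0}
  have := (fun _ => trivial : _ → True) @Cfsg.IsLieRankAtLeastThreeChar.eq_def.{0}
  have := (fun _ => trivial : _ → True) @Cfsg.IsLieRankAtLeastThreeChar.congr_simp.{0}
  have := (fun _ => trivial : _ → True) @Cfsg.IsAlmostLieTypeWith.eq_1.{0}
  have := (fun _ => trivial : _ → True) @Cfsg.IsAlmostLieTypeWith.eq_def.{0}
  have := (fun _ => trivial : _ → True) @Cfsg.IsAlmostLieTypeWith.congr_simp.{0}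
  have := (fun _ => trivial : _ → True) @Cfsg.IsLieRankOneChar.eq_1.{0}
  have := (fun _ => trivial : _ → True) @Cfsg.IsLieRankOneChar.eq_def.{0}
  have := (fun _ => trivial : _ → True) @Cfsg.IsLieRankOneChar.congr_simp.{0}
  have := (fun _ => trivial : _ → True) @Cfsg.IsPCentral.eq_1.{0}
  have := (fun _ => trivial : _ → True) @Cfsg.IsPCentral.eq_def.{0}
  have := (fun _ => trivial : _ → True) @Cfsg.IsPCentral.congr_simp.{0}
  have := (fun _ => trivial : _ → True) @Cfsg.IsSemiExtraspecial.eq_1.{0}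
  have := (fun _ => trivial : _ → True) @Cfsg.IsSemiExtraspecial.eq_def.{0}
  have := (fun _ => trivial : _ → True) @Cfsg.IsSemiExtraspecial.congr_simp.{0}
  have := (fun _ => trivial : _ → True) @Cfsg.IsLieRankAtLeastTwoChar.eq_1.{0}
  have := (fun _ => trivial : _ → True) @Cfsg.IsLieRankAtLeastTwoChar.eq_def.{0}
  have := (fun _ => trivial : _ → True) @Cfsg.IsLieRankAtLeastTwoChar.congr_simp.{0}
  trivial
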