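import Cfsg.Prelude.Def_DStar

/-! Pre-generates on-demand lemmas for the definitions, so that importers share one copy. -/

theorem CfsgLib.Eq.Def_DStar.touch : True := by
  have := (fun _ => trivial : _ → True) @Cfsg.dStarOf.eq_1.{0}
  have := (fun _ => trivial : _ → True) @Cfsg.dStarOf.eq_def.{0}
  have := (fun _ => trivial : _ → True) @Cfsg.dStarOf.congr_simp.{0}
  have := (fun _ => trivial : _ → True) @Cfsg.dStar.eq_1.{0}
  have := (fun _ => trivial : _ → True) @Cfsg.dStar.eq_def.{0}
  have := (fun _ => trivial : _ → True) @Cfsg.dStar.congr_simp.{0}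
  have := (fun _ => trivial : _ → True) @Cfsg.dStarFamily.eq_1.{0}
  have := (fun _ => trivial : _ → True) @Cfsg.dStarFamily.eq_def.{0}
  have := (fun _ => trivial : _ → True) @Cfsg.dStarFamily.congr_simp.{0}
  trivial
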